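import Mathlib
import Cfsg.Agent.Lib.IsolatedCount
import Cfsg.Agent.Lib.GW.Basic

/-!
# Groups with exactly `|P| / 2` classes of `2`-elements: the fusion pattern
-/

set_option autoImplicit false

namespace CfsgLib.GW

open Subgroup Finset CfsgLib.PGrp
open scoped commutatorElement

variable {G : Type*} [Group G] [Finite G]

/-- The number of classes of `2`-elements. -/
noncomputable abbrev k2 (G : Type*) [Group G] : ℕ :=
  Nat.card {c : ConjClasses G // ∀ x ∈ c.carrier, ∃ k : ℕ, orderOf x = 2 ^ k}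

theorem half_key (P : Sylow 2 G) (hk : 2 * k2 G = Nat.card (P : Subgroup G)) (z : Fin 3 → G)
    (hzP : ∀ j, z j ∈ (P : Subgroup G)) (hconj : ∀ j l, IsConj (z j) (z l))
    (hz : ∀ j l, ∀ i ∈ isolated P, z j = z l * i → j = l) :
    (∀ j, ∀ i ∈ isolated P, fusionCard (P : Subgroup G) (z j * i) = 3) ∧
      ∀ w ∈ (P : Subgroup G), fusionCard (P : Subgroup G) w ≤ 2 ∨
        ∃ j, ∃ i ∈ isolated P, w = z j * i := by
  classical
  have := Fintype.ofFinite G
  have hz3 : ∀ j, 3 ≤ fusionCard (P : Subgroup G) (z j) := by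
    intro j
    have h1 : Function.Injective z := fun j l h => hz j l 1 (one_mem _) (by rw [h, mul_one])
    have h2 := Set.ncard_le_ncard_of_injOn (s := Set.univ)
      (t := {v | v ∈ (P : Subgroup G) ∧ IsConj (z j) v}) z
      (fun l _ => ⟨hzP l, hconj j l⟩) h1.injOn
    rwa [Set.ncard_univ, Nat.card_eq_fintype_card, Fintype.card_fin] at h2
  let I : Finset G := univ.filter (· ∈ isolated P)
  let T : Finset G := (univ ×ˢ I).image fun w : Fin 3 × G => z w.1 * w.2
  have hT : T.card = 3 * I.card := by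
    rw [card_image_of_injOn, card_product, card_univ, Fintype.card_fin]
    rintro ⟨j, i⟩ hi ⟨l, i'⟩ hi' h
    simp only [I, coe_product, Set.mem_prod, mem_coe, mem_filter, mem_univ, true_and] at hi hi'
    have h' : z j * i = z l * i' := h
    obtain rfl := hz j l (i' * i⁻¹) (mul_mem hi' (inv_mem hi)) (by rw [← mul_assoc, ← h']; group)
    rw [mul_left_cancel h']
  have hTm : ∀ w, w ∈ T ↔ ∃ j, ∃ i ∈ isolated P, w = z j * i := by
    intro w
    constructor
    · intro hw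
      obtain ⟨⟨j, i⟩, hi, rfl⟩ := mem_image.1 hw
      simp only [I, mem_product, mem_filter, mem_univ, true_and] at hi
      exact ⟨j, i, hi, rfl⟩
    · rintro ⟨j, i, hi, rfl⟩
      exact mem_image.2 ⟨⟨j, i⟩, by simp [I, hi], rfl⟩
  have hT3 : ∀ w ∈ T, w ∈ (P : Subgroup G) ∧ 3 ≤ fusionCard (P : Subgroup G) w ∧ w ∉ I := by
    intro w hw
    obtain ⟨j, i, hi, rfl⟩ := (hTm w).1 hw
    simp only [I, mem_filter, mem_univ, true_and]
    refine ⟨mul_mem (hzP j) hi.1,
      (hz3 j).trans (fusionCard_le_mul_isolated (hzP j) hi), fun h => ?_⟩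
    have h1 : z j ∈ isolated P := by simpa using mul_mem h (inv_mem hi)
    obtain ⟨l, hl⟩ := exists_ne j
    obtain ⟨g, hg⟩ := isConj_iff.1 (hconj j l)
    have h2 := h1.2 g (hg ▸ hzP l)
    exact hl (hz l j 1 (one_mem _) (by rw [mul_one, ← hg, h2]))
  have hle : ∀ w ∈ univ.filter (· ∈ (P : Subgroup G)),
      ((fusionCard (P : Subgroup G) w : ℚ))⁻¹ ≤
        (1 / 2 + (if w ∈ I then 1 / 2 else 0) - (if w ∈ T then 1 / 6 else 0) : ℚ) := by
    intro w hw
    have hwP := (mem_filter.1 hw).2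
    by_cases h1 : w ∈ T
    · obtain ⟨-, h2, h3⟩ := hT3 w h1
      rw [if_pos h1, if_neg h3]
      have : (3 : ℚ) ≤ fusionCard (P : Subgroup G) w := by exact_mod_cast h2
      exact (inv_anti₀ (by norm_num) this).trans (by norm_num)
    · rw [if_neg h1]
      by_cases h2 : w ∈ I
      · rw [if_pos h2]
        have : (1 : ℚ) ≤ fusionCard (P : Subgroup G) w := by exact_mod_cast one_le_fusionCard hwP
        exact (inv_anti₀ (by norm_num) this).trans (by norm_num)
      · rw [if_neg h2]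
        have : (2 : ℚ) ≤ fusionCard (P : Subgroup G) w := by
          exact_mod_cast two_le_fusionCard hwP fun h => h2 (mem_filter.2 ⟨mem_univ _, h⟩)
        exact (inv_anti₀ (by norm_num) this).trans (by norm_num)
  have hI' : (univ.filter (· ∈ (P : Subgroup G))).filter (· ∈ I) = I := by
    ext w
    simp only [I, mem_filter, mem_univ, true_and]
    exact ⟨fun h => h.2, fun h => ⟨h.1, h⟩⟩
  have hT' : (univ.filter (· ∈ (P : Subgroup G))).filter (· ∈ T) = T := by
    ext w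
    simp only [mem_filter, mem_univ, true_and]
    exact ⟨fun h => h.2, fun h => ⟨(hT3 w h).1, h⟩⟩
  have hP : Nat.card (P : Subgroup G) = (univ.filter (· ∈ (P : Subgroup G))).card := by
    rw [Nat.card_eq_fintype_card, Fintype.card_subtype]
  have heq := (sum_eq_sum_iff_of_le hle).1 (by
    rw [← card_pClasses_eq_sum, sum_sub_distrib, sum_add_distrib, ← sum_filter, ← sum_filter, hI',
      hT', sum_const, sum_const, sum_const, hT, ← hP, ← hk]
    simp only [nsmul_eq_mul]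
    push_cast
    ring)
  refine ⟨fun j i hi => ?_, fun w hw => ?_⟩
  · have h1 := (hTm _).2 ⟨j, i, hi, rfl⟩
    obtain ⟨h2, -, h3⟩ := hT3 _ h1
    have h4 := heq _ (mem_filter.2 ⟨mem_univ _, h2⟩)
    rw [if_pos h1, if_neg h3, inv_eq_iff_eq_inv] at h4
    have : (fusionCard (P : Subgroup G) (z j * i) : ℚ) = 3 := by rw [h4]; norm_num
    exact_mod_cast this
  · by_cases h1 : w ∈ T
    · exact Or.inr ((hTm w).1 h1)
    · left
      have h4 := heq _ (mem_filter.2 ⟨mem_univ _, hw⟩)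
      rw [if_neg h1, inv_eq_iff_eq_inv] at h4
      have : (fusionCard (P : Subgroup G) w : ℚ) ≤ 2 := by
        rw [h4]; split_ifs <;> norm_num
      exact_mod_cast this

/-- Elements of a fusion class with at most `n` members. -/
theorem mem_of_fusionCard_le {P : Subgroup G} {w v : G} {s : Finset G}
    (hs : ∀ u ∈ s, u ∈ P ∧ IsConj w u) (hc : fusionCard P w ≤ s.card) (hv : v ∈ P)
    (hwv : IsConj w v) : v ∈ s := by
  have h := Set.eq_of_subset_of_ncard_le (s := (s : Set G)) (t := {v | v ∈ P ∧ IsConj w v})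
    (fun u hu => hs u hu) (by rw [Set.ncard_coe_finset]; exact hc) (Set.toFinite _)
  have : v ∈ (s : Set G) := h ▸ ⟨hv, hwv⟩
  exact this

theorem three_le_fusionCard {P : Subgroup G} {w a b : G} (hw : w ∈ P) (ha : a ∈ P) (hb : b ∈ P)
    (h1 : IsConj w a) (h2 : IsConj w b) (n1 : w ≠ a) (n2 : w ≠ b) (n3 : a ≠ b) :
    3 ≤ fusionCard P w := by
  classical
  have h := Set.ncard_le_ncard (s := (({w, a, b} : Finset G) : Set G))
    (t := {v | v ∈ P ∧ IsConj w v}) (fun u hu => by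
      simp only [coe_insert, coe_singleton, Set.mem_insert_iff, Set.mem_singleton_iff] at hu
      rcases hu with rfl | rfl | rfl
      · exact ⟨hw, IsConj.refl _⟩
      · exact ⟨ha, h1⟩
      · exact ⟨hb, h2⟩) (Set.toFinite _)
  rwa [Set.ncard_coe_finset, card_eq_three.2 ⟨w, a, b, n1, n2, n3, rfl⟩] at h

/-- The equality case for an element `x` moved by an element `y` of odd order. -/
theorem half_three (P : Sylow 2 G) (hk : 2 * k2 G = Nat.card (P : Subgroup G)) {Q : Subgroup G}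
    (hQP : Q ≤ P) {y x : G} (hy : y ∈ normalizer (Q : Set G)) (hodd : Odd (orderOf y))
    (hxQ : x ∈ Q) (hxy : x * y ≠ y * x) :
    (∀ i ∈ isolated P, y * x * y⁻¹ ≠ x * i) ∧
    (∀ i ∈ isolated P, y * (y * x * y⁻¹) * y⁻¹ ≠ x * i) ∧
    (∀ i ∈ isolated P, y * (y * x * y⁻¹) * y⁻¹ ≠ y * x * y⁻¹ * i) ∧
    (∀ i ∈ isolated P, fusionCard (P : Subgroup G) (x * i) = 3) ∧
      ∀ w ∈ (P : Subgroup G), fusionCard (P : Subgroup G) w ≤ 2 ∨
        ∃ i ∈ isolated P, w = x * i ∨ w = y * x * y⁻¹ * i ∨ w = y * (y * x * y⁻¹) * y⁻¹ * i := by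
  have hcop : (orderOf y).Coprime 2 := Nat.coprime_two_right.2 hodd
  have hyQ : ∀ a ∈ Q, y * a * y⁻¹ ∈ Q := fun a ha => (mem_normalizer_iff.1 hy a).1 ha
  let z : Fin 3 → G := ![x, y * x * y⁻¹, y * (y * x * y⁻¹) * y⁻¹]
  have hzQ : ∀ j, z j ∈ Q := by
    intro j
    fin_cases j
    · exact hxQ
    · exact hyQ x hxQ
    · exact hyQ _ (hyQ x hxQ)
  have h01 : ∀ i ∈ isolated P, y * x * y⁻¹ ≠ x * i := by
    intro i hi h
    rw [eq_one_of_conj_eq_mul_isolated hQP hy hcop hxQ hi h, mul_one,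
      mul_inv_eq_iff_eq_mul] at h
    exact hxy h.symm
  have h12 : ∀ i ∈ isolated P, y * (y * x * y⁻¹) * y⁻¹ ≠ y * x * y⁻¹ * i := by
    intro i hi h'
    rw [eq_one_of_conj_eq_mul_isolated hQP hy hcop (hyQ x hxQ) hi h', mul_one, mul_left_inj,
      mul_assoc, mul_right_inj, ← mul_assoc, mul_inv_eq_iff_eq_mul] at h'
    exact hxy h'.symm
  have h02 : ∀ i ∈ isolated P, y * (y * x * y⁻¹) * y⁻¹ ≠ x * i := by
    intro i hi h
    have h' : y ^ 2 * x * (y ^ 2)⁻¹ = x * i := by rw [← h, sq]; group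
    rw [eq_one_of_conj_eq_mul_isolated hQP (pow_mem hy 2)
      (Nat.Coprime.coprime_dvd_left (orderOf_pow_dvd 2) hcop) hxQ hi h', mul_one,
      mul_inv_eq_iff_eq_mul] at h'
    obtain ⟨m, hm⟩ := hodd
    have h1 : y = (y ^ 2) ^ (m + 1) := by
      rw [← pow_mul, show 2 * (m + 1) = orderOf y + 1 by omega, pow_succ, pow_orderOf_eq_one,
        one_mul]
    have h2 : Commute (y ^ 2) x := h'
    exact hxy (by rw [h1]; exact (h2.pow_left (m + 1)).symm)
  have hz : ∀ j l, ∀ i ∈ isolated P, z j = z l * i → j = l := by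
    have hsw : ∀ a b i : G, a = b * i → b = a * i⁻¹ := fun a b i h => by rw [h]; group
    intro j l i hi h
    fin_cases j <;> fin_cases l <;> first
      | rfl
      | exact absurd h (h01 i hi)
      | exact absurd h (h02 i hi)
      | exact absurd h (h12 i hi)
      | exact absurd (hsw _ _ _ h) (h01 _ (inv_mem hi))
      | exact absurd (hsw _ _ _ h) (h02 _ (inv_mem hi))
      | exact absurd (hsw _ _ _ h) (h12 _ (inv_mem hi))
  have hconj : ∀ j, IsConj x (z j) := by
    intro j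
    fin_cases j
    · exact IsConj.refl x
    · exact isConj_iff.2 ⟨y, rfl⟩
    · exact isConj_iff.2 ⟨y * y, by simp only [z]; simp; group⟩
  obtain ⟨h1, h2⟩ := half_key P hk z (fun j => hQP (hzQ j))
    (fun j l => (hconj j).symm.trans (hconj l)) hz
  refine ⟨h01, h02, h12, h1 0, fun w hw => (h2 w hw).imp_right ?_⟩
  rintro ⟨j, i, hi, rfl⟩
  refine ⟨i, hi, ?_⟩
  fin_cases j
  · exact Or.inl rfl
  · exact Or.inr (Or.inl rfl)
  · exact Or.inr (Or.inr rfl)

theorem exists_not_mem_two {H A B : Subgroup G} {a b : G} (ha : a ∈ H) (hb : b ∈ H) (h1 : a ∉ A)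
    (h2 : b ∉ B) : ∃ u ∈ H, u ∉ A ∧ u ∉ B := by
  by_cases h3 : a ∈ B
  · by_cases h4 : b ∈ A
    · exact ⟨a * b, mul_mem ha hb, fun h => h1 ((A.mul_mem_cancel_right h4).1 h),
        fun h => h2 ((B.mul_mem_cancel_left h3).1 h)⟩
    · exact ⟨b, hb, h4, h2⟩
  · exact ⟨a, ha, h1, h3⟩

theorem eq_one_of_pow_odd {P : Subgroup G} (hP : IsPGroup 2 P) {g : G} (hg : g ∈ P) {n : ℕ}
    (hn : Odd n) (h : g ^ n = 1) : g = 1 := by
  obtain ⟨k, hk⟩ := IsPGroup.iff_orderOf.1 hP ⟨g, hg⟩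
  rw [orderOf_mk] at hk
  rw [← orderOf_eq_one_iff]
  exact Nat.eq_one_of_dvd_coprimes ((Nat.coprime_two_right.2 hn).pow_right k)
    (orderOf_dvd_of_pow_eq_one h) (dvd_of_eq hk)

theorem commute_of_pow_odd {P : Subgroup G} (hP : IsPGroup 2 P) {g a : G} (hg : g ∈ P) {n : ℕ}
    (hn : Odd n) (h : Commute (g ^ n) a) : Commute g a := by
  obtain ⟨k, hk⟩ := IsPGroup.iff_orderOf.1 hP ⟨g, hg⟩
  rw [orderOf_mk] at hk
  obtain ⟨m, hm⟩ := exists_pow_eq_self_of_coprime (x := g) (n := n)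
    (hk ▸ (Nat.coprime_two_right.2 hn).pow_right k)
  rw [← hm]
  exact h.pow_left m

theorem commute_of_sq_of_norm (P : Sylow 2 G) {n w : G}
    (hn : n ∈ normalizer ((P : Subgroup G) : Set G))
    (hw : w ∈ centralizer ((P : Subgroup G) : Set G)) (h : Commute (n ^ 2) w) : Commute n w := by
  have h1 := ((P : Subgroup G).subgroupOf (normalizer ((P : Subgroup G) : Set G))).pow_index_mem
    ⟨n, hn⟩
  have h2 : ¬ 2 ∣ (P : Subgroup G).relIndex (normalizer ((P : Subgroup G) : Set G)) := fun h =>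
    P.not_dvd_index (h.trans (Dvd.intro _ (relIndex_mul_index le_normalizer)))
  obtain ⟨m, hm⟩ := Nat.odd_iff.2 (Nat.two_dvd_ne_zero.1 h2)
  rw [mem_subgroupOf, SubmonoidClass.coe_pow] at h1
  change n ^ (P : Subgroup G).relIndex (normalizer ((P : Subgroup G) : Set G)) ∈ _ at h1
  rw [hm] at h1
  have h3 : Commute (n ^ (2 * m + 1)) w := hw _ h1
  have h4 : n = ((n ^ 2) ^ m)⁻¹ * n ^ (2 * m + 1) := by group
  rw [h4]
  exact (h.pow_left m).inv_left.mul_left h3

theorem isolated_comm {P : Sylow 2 G} {i u : G} (hi : i ∈ isolated P) (hu : u ∈ (P : Subgroup G)) :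
    Commute u i :=
  mul_inv_eq_iff_eq_mul.1 (hi.2 u (mul_mem (mul_mem hu hi.1) (inv_mem hu)))

/-- The fusion class of an element moved by an element of odd order. -/
theorem half_class (P : Sylow 2 G) (hk : 2 * k2 G = Nat.card (P : Subgroup G)) {Q : Subgroup G}
    (hQP : Q ≤ P) {y x : G} (hy : y ∈ normalizer (Q : Set G)) (hodd : Odd (orderOf y))
    (hxQ : x ∈ Q) (hxy : x * y ≠ y * x) {i : G} (hi : i ∈ isolated P) {v : G}
    (hv : v ∈ (P : Subgroup G)) (hc : IsConj (x * i) v) :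
    v = x * i ∨ v = y * x * y⁻¹ * i ∨ v = y * (y * x * y⁻¹) * y⁻¹ * i := by
  classical
  obtain ⟨h01, h02, h12, h3, -⟩ := half_three P hk hQP hy hodd hxQ hxy
  have hyQ : ∀ a ∈ Q, y * a * y⁻¹ ∈ Q := fun a ha => (mem_normalizer_iff.1 hy a).1 ha
  have key : ∀ g : G, g * x * g⁻¹ ∈ Q → g * x * g⁻¹ * i ∈ (P : Subgroup G) ∧
      IsConj (x * i) (g * x * g⁻¹ * i) := fun g hg => by
    obtain ⟨h, e1, e2⟩ := exists_conj_fix_isolated P (hQP hxQ) (hQP hg)
    exact ⟨mul_mem (hQP hg) hi.1, isConj_iff.2 ⟨h, by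
      rw [← _root_.conj_mul, e1, e2 i hi.1 hi.2]⟩⟩
  have e2 : y * (y * x * y⁻¹) * y⁻¹ = (y * y) * x * (y * y)⁻¹ := by group
  have := mem_of_fusionCard_le (P := P) (w := x * i) (v := v)
    (s := {x * i, y * x * y⁻¹ * i, y * (y * x * y⁻¹) * y⁻¹ * i}) (fun u hu => by
      simp only [mem_insert, mem_singleton] at hu
      rcases hu with rfl | rfl | rfl
      · exact ⟨mul_mem (hQP hxQ) hi.1, IsConj.refl _⟩
      · exact key y (hyQ x hxQ)
      · rw [e2]; exact key _ (e2 ▸ hyQ _ (hyQ x hxQ))) (by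
      rw [h3 i hi, card_eq_three.2 ⟨_, _, _, ?_, ?_, ?_, rfl⟩]
      · exact fun h => h01 1 (one_mem _) (by rw [mul_one]; exact (mul_right_cancel h).symm)
      · exact fun h => h02 1 (one_mem _) (by rw [mul_one]; exact (mul_right_cancel h).symm)
      · exact fun h => h12 1 (one_mem _) (by rw [mul_one]; exact (mul_right_cancel h).symm)) hv hc
  simpa only [mem_insert, mem_singleton] using this

theorem half_cyc (P : Sylow 2 G) (hk : 2 * k2 G = Nat.card (P : Subgroup G)) {Q : Subgroup G}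
    (hQP : Q ≤ P) {y x : G} (hy : y ∈ normalizer (Q : Set G)) (hodd : Odd (orderOf y))
    (hxQ : x ∈ Q) (hxy : x * y ≠ y * x) : y * (y * (y * x * y⁻¹) * y⁻¹) * y⁻¹ = x := by
  obtain ⟨h01, h02, h12, -, -⟩ := half_three P hk hQP hy hodd hxQ hxy
  have hyQ : ∀ a ∈ Q, y * a * y⁻¹ ∈ Q := fun a ha => (mem_normalizer_iff.1 hy a).1 ha
  have := half_class P hk hQP hy hodd hxQ hxy (one_mem _) (hQP (hyQ _ (hyQ _ (hyQ x hxQ))))
    (isConj_iff.2 ⟨y * y * y, by group⟩)
  simp only [mul_one] at this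
  rcases this with h | h | h
  · exact h
  · exact absurd (by rw [mul_one]; exact conj_injective h) (h02 1 (one_mem _))
  · exact absurd (by rw [mul_one]; exact conj_injective h) (h12 1 (one_mem _))

/-- The four-group. -/
theorem half_four (P : Sylow 2 G) (hk : 2 * k2 G = Nat.card (P : Subgroup G)) {Q : Subgroup G}
    (hQP : Q ≤ P) {y : G} (hy : y ∈ normalizer (Q : Set G)) (hodd : Odd (orderOf y))
    (hc : y ∉ centralizer (Q : Set G)) :
    ∃ a ∈ Q, Four a (y * a * y⁻¹) ∧ y * (y * a * y⁻¹) * y⁻¹ = a * (y * a * y⁻¹) := by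
  have hP := P.isPGroup'
  rw [mem_centralizer_iff] at hc
  push Not at hc
  obtain ⟨x, hxQ, hxy⟩ := hc
  have hyQ : ∀ a ∈ Q, y * a * y⁻¹ ∈ Q := fun a ha => (mem_normalizer_iff.1 hy a).1 ha
  have hx3 := half_cyc P hk hQP hy hodd hxQ hxy
  obtain ⟨a, ha⟩ : ∃ a, a = x⁻¹ * (y * x * y⁻¹) := ⟨_, rfl⟩
  have haQ : a ∈ Q := ha ▸ mul_mem (inv_mem hxQ) (hyQ x hxQ)
  obtain ⟨b, hb⟩ : ∃ b, b = y * a * y⁻¹ := ⟨_, rfl⟩
  obtain ⟨c, hc⟩ : ∃ c, c = y * b * y⁻¹ := ⟨_, rfl⟩
  have hbQ : b ∈ Q := hb ▸ hyQ a haQ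
  have hcQ : c ∈ Q := hc ▸ hyQ b hbQ
  have habc : a * b * c = 1 := by
    calc a * b * c = x⁻¹ * (y * (y * (y * x * y⁻¹) * y⁻¹) * y⁻¹) := by rw [hc, hb, ha]; group
      _ = 1 := by rw [hx3, inv_mul_cancel]
  have hay : a * y ≠ y * a := fun h => by
    have h1 : b = a := by rw [hb, ← h, mul_inv_cancel_right]
    have h2 : c = a := by rw [hc, h1, ← h, mul_inv_cancel_right]
    have h3 : a = 1 := eq_one_of_pow_odd hP (hQP haQ) (n := 3) (by decide) (by
      rw [← habc, h1, h2, pow_three'])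
    rw [h3, eq_comm, inv_mul_eq_one, eq_comm, mul_inv_eq_iff_eq_mul] at ha
    exact hxy ha.symm
  obtain ⟨h01, h02, h12, h3, h4⟩ := half_three P hk hQP hy hodd haQ hay
  have hca := half_cyc P hk hQP hy hodd haQ hay
  have hcl := fun v hv hc => half_class P hk hQP hy hodd haQ hay (one_mem _) (v := v) hv hc
  rw [← hb, ← hc] at h02 h12 h4 hca hcl
  rw [← hb] at h01
  simp only [mul_one] at hcl
  have nab : b ≠ a := by simpa using h01 1 (one_mem _)
  have nac : c ≠ a := by simpa using h02 1 (one_mem _)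
  have hab : a * b = b * a := by
    rcases hcl (b * a * b⁻¹) (hQP (mul_mem (mul_mem hbQ haQ) (inv_mem hbQ)))
      (isConj_iff.2 ⟨b, rfl⟩) with h | h | h
    · exact (mul_inv_eq_iff_eq_mul.1 h).symm
    · rw [mul_inv_eq_iff_eq_mul, mul_right_inj] at h
      exact absurd h.symm nab
    · exfalso
      have aux : ∀ u v : G, y * (u * v * u⁻¹) * y⁻¹ =
          (y * u * y⁻¹) * (y * v * y⁻¹) * (y * u * y⁻¹)⁻¹ := fun u v => by group
      have e1 : c * b * c⁻¹ = a := by
        have := aux b a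
        rw [h, hca, ← hb, ← hc] at this
        exact this.symm
      have e2 : a * c * a⁻¹ = b := by
        have := aux c b
        rw [e1, hca, ← hb, ← hc] at this
        exact this.symm
      have g1 : b * a = c * b := by rw [← h]; group
      have g2 : b * a = a * c := by rw [← e2]; group
      have h5 : Commute ((b * a) ^ 3) a := by
        refine mul_inv_eq_iff_eq_mul.1 ?_
        calc (b * a) ^ 3 * a * ((b * a) ^ 3)⁻¹ =
            (b * a) * ((b * a) * (b * a * b⁻¹) * (b * a)⁻¹) * (b * a)⁻¹ := by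
              rw [pow_three']; group
          _ = (b * a) * (a * c * a⁻¹) * (b * a)⁻¹ := by rw [h, g2]; group
          _ = a := by rw [e2, g1, ← e1]; group
      have h6 := commute_of_pow_odd hP (hQP (mul_mem hbQ haQ)) (by decide) h5
      refine nac ?_
      rw [← h]
      calc b * a * b⁻¹ = (b * a * a) * a⁻¹ * b⁻¹ := by group
        _ = a := by rw [h6.eq]; group
  have hab' : Commute a b := hab
  have hc' : c = (a * b)⁻¹ := eq_inv_of_mul_eq_one_right habc
  have haI : a ∉ isolated P := fun h => nab (hb ▸ h.2 y (hQP (hyQ a haQ)))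
  have hsq : a * a = 1 := by
    by_cases h : a * a * y = y * (a * a)
    · have h1 : b * b = a * a := by rw [hb, _root_.conj_mul, ← h, mul_inv_cancel_right]
      have h2 : c * c = a * a := by rw [hc, _root_.conj_mul, h1, ← h, mul_inv_cancel_right]
      refine eq_one_of_pow_odd hP (hQP (mul_mem haQ haQ)) (n := 3) (by decide) ?_
      rw [pow_three']
      nth_rw 2 [← h1]
      nth_rw 2 [← h2]
      rw [hc', hab'.mul_mul_mul_comm, ← mul_inv_rev]
      group
    · exfalso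
      have h5 := (half_three P hk hQP hy hodd (mul_mem haQ haQ) h).2.2.2.1 1 (one_mem _)
      rw [mul_one] at h5
      have key : ∀ {u v w i : G}, u ∈ Q → v ∈ Q → w ∈ Q → i ∈ isolated P → u * u = v * i →
          v * v = w * i → w * w = u * i → u ∈ isolated P := by
        intro u v w i hu hv hw hi e1 e2 e3
        have c1 := isolated_comm hi (hQP hu)
        have c2 := isolated_comm hi (hQP hv)
        have c3 := isolated_comm hi (hQP hw)
        have : u * i⁻¹ = 1 := by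
          refine eq_one_of_pow_odd hP (mul_mem (hQP hu) (inv_mem hi.1)) (n := 7) (by decide) ?_
          rw [c1.inv_right.mul_pow, inv_pow, mul_inv_eq_one]
          refine mul_left_cancel (a := u) ?_
          calc u * u ^ 7 = (u * u) ^ 4 := by rw [← sq]; group
            _ = (v * v) ^ 2 * i ^ 4 := by rw [e1, c2.mul_pow, ← sq]; group
            _ = (w * w) * i ^ 6 := by rw [e2, c3.mul_pow, ← sq]; group
            _ = u * i ^ 7 := by rw [e3]; group
        rwa [mul_inv_eq_one.1 this]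
      rcases h4 _ (hQP (mul_mem haQ haQ)) with h6 | ⟨i, hi, h6 | h6 | h6⟩
      · omega
      · exact haI (mul_left_cancel h6 ▸ hi)
      · have hiy : y * i * y⁻¹ = i := hi.2 y (hQP (hyQ i (by
          rw [← inv_mul_eq_iff_eq_mul] at h6
          exact h6 ▸ mul_mem (inv_mem hbQ) (mul_mem haQ haQ))))
        have e1 : b * b = c * i := by rw [hb, _root_.conj_mul, h6, ← _root_.conj_mul, hiy, ← hc]
        have e2 : c * c = a * i := by rw [hc, _root_.conj_mul, e1, ← _root_.conj_mul, hiy, hca]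
        exact haI (key haQ hbQ hcQ hi h6 e1 e2)
      · have hiy : y * i * y⁻¹ = i := hi.2 y (hQP (hyQ i (by
          rw [← inv_mul_eq_iff_eq_mul] at h6
          exact h6 ▸ mul_mem (inv_mem hcQ) (mul_mem haQ haQ))))
        have e1 : b * b = a * i := by rw [hb, _root_.conj_mul, h6, ← _root_.conj_mul, hiy, hca]
        have e2 : c * c = b * i := by
          rw [hc, _root_.conj_mul, e1, ← _root_.conj_mul, hiy, ← hb]
        exact haI (key haQ hcQ hbQ hi h6 e2 e1)
  have oa : orderOf a = 2 := inv_of_mul_self hsq fun h => haI (h ▸ one_mem _)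
  have ob : orderOf b = 2 := by rw [hb, ← oa]; exact CfsgLib.FT.U4.orderOf_conj y a
  have h4 : Four a b := ⟨oa, ob, hab, nab.symm⟩
  refine ⟨a, haQ, hb ▸ h4, ?_⟩
  rw [← hb, ← hc, hc', inv_of_inv h4.ots]

theorem eq_or_eq_of_le_two {P : Subgroup G} {w w' v : G} (hw : w ∈ P) (hw' : w' ∈ P) (hv : v ∈ P)
    (h1 : IsConj w w') (h2 : IsConj w v) (hne : w ≠ w') (h : fusionCard P w ≤ 2) :
    v = w ∨ v = w' := by
  by_contra hn
  push Not at hn
  have := three_le_fusionCard hw hw' hv h1 h2 hne hn.1.symm hn.2.symm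
  omega

/-- The focal subgroup is the four-group. -/
theorem half_focal (P : Sylow 2 G) (hk : 2 * k2 G = Nat.card (P : Subgroup G)) {Q : Subgroup G}
    (hQP : Q ≤ P) {y a : G} (hy : y ∈ normalizer (Q : Set G)) (hodd : Odd (orderOf y))
    (haQ : a ∈ Q) (h4 : Four a (y * a * y⁻¹))
    (hc : y * (y * a * y⁻¹) * y⁻¹ = a * (y * a * y⁻¹)) :
    (P : Subgroup G).focalSubgroup ≤ V a (y * a * y⁻¹) := by
  have hyQ : ∀ a ∈ Q, y * a * y⁻¹ ∈ Q := fun a ha => (mem_normalizer_iff.1 hy a).1 ha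
  have hay : a * y ≠ y * a := fun h => h4.ne (by rw [← h, mul_inv_cancel_right])
  obtain ⟨-, -, -, -, h5⟩ := half_three P hk hQP hy hodd haQ hay
  have hca := half_cyc P hk hQP hy hodd haQ hay
  have hbQ := hyQ a haQ
  have hby : (y * a * y⁻¹) * y ≠ y * (y * a * y⁻¹) := fun h => h4.t1 (by
    rw [← h, mul_inv_cancel_right, eq_comm, mul_eq_right] at hc
    exact hc)
  have hcy : (a * (y * a * y⁻¹)) * y ≠ y * (a * (y * a * y⁻¹)) := fun h => h4.s1 (by
    rw [hc, ← h, mul_inv_cancel_right, mul_eq_left] at hca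
    exact hca)
  have cl1 := fun i (hi : i ∈ isolated P) v hv hc =>
    half_class P hk hQP hy hodd haQ hay hi (v := v) hv hc
  have cl2 := fun i (hi : i ∈ isolated P) v hv hc =>
    half_class P hk hQP hy hodd hbQ hby hi (v := v) hv hc
  have cl3 := fun i (hi : i ∈ isolated P) v hv hc =>
    half_class P hk hQP hy hodd (mul_mem haQ hbQ) hcy hi (v := v) hv hc
  rw [hc] at hca h5 cl1 cl2
  rw [hca] at cl2 cl3
  obtain ⟨b, hb⟩ : ∃ b, b = y * a * y⁻¹ := ⟨_, rfl⟩
  rw [← hb] at h4 hbQ h5 cl1 cl2 cl3 ⊢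
  have haV := t_mem_V a b
  have hbV := s_mem_V a b
  have hVP : V a b ≤ P := V_le (hQP haQ) (hQP hbQ)
  have h5' : ∀ w ∈ (P : Subgroup G), fusionCard (P : Subgroup G) w ≤ 2 ∨
      ∃ i ∈ isolated P, ∃ v ∈ V a b, v ≠ 1 ∧ w = v * i := fun w hw => (h5 w hw).imp_right (by
    rintro ⟨i, hi, h | h | h⟩
    · exact ⟨i, hi, _, haV, h4.t1, h⟩
    · exact ⟨i, hi, _, hbV, h4.s1, h⟩
    · exact ⟨i, hi, _, mul_mem haV hbV, h4.ts1, h⟩)
  have cl : ∀ i ∈ isolated P, ∀ u ∈ V a b, ∀ v ∈ (P : Subgroup G), IsConj (u * i) v →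
      ∃ u' ∈ V a b, v = u' * i := by
    intro i hi u hu v hv hcj
    rcases h4.mem_V.1 hu with rfl | rfl | rfl | rfl
    · obtain ⟨g, rfl⟩ := isConj_iff.1 hcj
      rw [one_mul] at hv ⊢
      exact ⟨1, one_mem _, by rw [hi.2 g hv, one_mul]⟩
    · rcases cl1 i hi v hv hcj with h | h | h
      exacts [⟨_, haV, h⟩, ⟨_, hbV, h⟩, ⟨_, mul_mem haV hbV, h⟩]
    · rcases cl2 i hi v hv hcj with h | h | h
      exacts [⟨_, hbV, h⟩, ⟨_, mul_mem haV hbV, h⟩, ⟨_, haV, h⟩]
    · rcases cl3 i hi v hv hcj with h | h | h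
      exacts [⟨_, mul_mem haV hbV, h⟩, ⟨_, haV, h⟩, ⟨_, hbV, h⟩]
  have clV : ∀ u ∈ V a b, ∀ g : G, g * u * g⁻¹ ∈ (P : Subgroup G) → g * u * g⁻¹ ∈ V a b := by
    intro u hu g hg
    obtain ⟨u', h1, h2⟩ := cl 1 (one_mem _) u hu _ hg (isConj_iff.2 ⟨g, by rw [mul_one]⟩)
    rw [h2, mul_one]
    exact h1
  have cj : ∀ {u g : G}, u ∈ (P : Subgroup G) → g ∈ (P : Subgroup G) →
      g * u * g⁻¹ ∈ (P : Subgroup G) := fun hu hg => mul_mem (mul_mem hg hu) (inv_mem hg)
  have cn : ∀ {u g : G}, u ∈ (P : Subgroup G) → g ∈ normalizer ((P : Subgroup G) : Set G) →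
      g * u * g⁻¹ ∈ (P : Subgroup G) := fun hu hg => (mem_normalizer_iff.1 hg _).1 hu
  have burn : ∀ {w w' : G}, w ∈ centralizer ((P : Subgroup G) : Set G) →
      w' ∈ centralizer ((P : Subgroup G) : Set G) → IsConj w w' →
      ∃ n ∈ normalizer ((P : Subgroup G) : Set G), n * w * n⁻¹ = w' := by
    intro w w' hw hw' hc
    obtain ⟨g, rfl⟩ := isConj_iff.1 hc
    obtain ⟨n, hn, e⟩ := P.conj_eq_normalizer_conj_of_mem_centralizer w g⁻¹ hw (by simpa using hw')
    exact ⟨n⁻¹, inv_mem hn, by simpa using e.symm⟩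
  have main : ∀ w ∈ (P : Subgroup G), ∀ w' ∈ (P : Subgroup G), IsConj w w' → w * w'⁻¹ ∈ V a b := by
    intro w hw w' hw' hww
    by_cases hne : w = w'
    · rw [hne, mul_inv_cancel]; exact one_mem _
    rcases h5' w hw with h2 | ⟨i, hi, v, hv, -, rfl⟩
    swap
    · obtain ⟨u', h1, rfl⟩ := cl i hi v hv w' hw' hww
      rw [mul_inv_rev, ← mul_assoc, mul_inv_cancel_right]
      exact mul_mem hv (inv_mem h1)
    have two := fun v hv h => eq_or_eq_of_le_two (v := v) hw hw' hv hww h hne h2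
    by_cases hwZ : w ∈ centralizer ((P : Subgroup G) : Set G)
    · exfalso
      have hw'Z : w' ∈ centralizer ((P : Subgroup G) : Set G) := fun u hu => by
        rcases two _ (cj hw' hu) (hww.trans (isConj_iff.2 ⟨u, rfl⟩)) with h | h
        · refine absurd ?_ hne
          rw [mul_inv_eq_iff_eq_mul, ← hwZ u hu] at h
          exact (mul_left_cancel h).symm
        · exact mul_inv_eq_iff_eq_mul.1 h
      obtain ⟨n, hn, e⟩ := burn hwZ hw'Z hww
      refine hne (e ▸ ?_)
      have : Commute n w := commute_of_sq_of_norm P hn hwZ (by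
        rcases two _ (cn hw' hn) (hww.trans (isConj_iff.2 ⟨n, rfl⟩)) with h | h
        · refine mul_inv_eq_iff_eq_mul.1 ?_
          calc n ^ 2 * w * (n ^ 2)⁻¹ = n * (n * w * n⁻¹) * n⁻¹ := by rw [sq]; group
            _ = w := by rw [e, h]
        · rw [← e] at h
          exact absurd (e ▸ (conj_injective h).symm) hne)
      rw [this.eq, mul_inv_cancel_right]
    by_cases hVZ : V a b ≤ centralizer ((P : Subgroup G) : Set G)
    · exfalso
      obtain ⟨n, hn, e⟩ := burn (hVZ haV) (hVZ hbV) (isConj_iff.2 ⟨y, hb.symm⟩)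
      have h6 : ¬ Commute (n ^ 2) a := fun h => h4.ne (by
        rw [← e, (commute_of_sq_of_norm P hn (hVZ haV) h).eq, mul_inv_cancel_right])
      obtain ⟨u, hu, h7, h8⟩ := exists_not_mem_two (B := centralizer {n ^ 2}) hw (hVP haV) hwZ
        (fun h => h6 (mem_centralizer_singleton_iff.1 h).symm)
      rcases h5' u hu with h9 | ⟨i, hi, v, hv, -, rfl⟩
      · refine h8 (mem_centralizer_singleton_iff.2 (Eq.symm (mul_inv_eq_iff_eq_mul.1 ?_)))
        by_cases h10 : u = n * u * n⁻¹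
        · rw [sq]
          calc n * n * u * (n * n)⁻¹ = n * (n * u * n⁻¹) * n⁻¹ := by group
            _ = u := by rw [← h10, ← h10]
        · rcases eq_or_eq_of_le_two hu (cn hu hn) (cn (cn hu hn) hn) (isConj_iff.2 ⟨n, rfl⟩)
            (isConj_iff.2 ⟨n * n, by group⟩) h10 h9 with h | h
          · calc n ^ 2 * u * (n ^ 2)⁻¹ = n * (n * u * n⁻¹) * n⁻¹ := by rw [sq]; group
              _ = u := h
          · exact absurd (conj_injective h).symm h10
      · exact h7 (mul_mem (hVZ hv) fun g hg => (isolated_comm hi hg).eq)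
    · obtain ⟨v, hv, hvZ⟩ := SetLike.not_le_iff_exists.1 hVZ
      rw [mem_centralizer_iff] at hwZ hvZ
      push Not at hwZ hvZ
      obtain ⟨g1, hg1, n1⟩ := hwZ
      obtain ⟨g2, hg2, n2⟩ := hvZ
      obtain ⟨u, hu, h7, h8⟩ := exists_not_mem_two (A := centralizer {w}) (B := centralizer {v})
        hg1 hg2 (fun h => n1 (mem_centralizer_singleton_iff.1 h))
        (fun h => n2 (mem_centralizer_singleton_iff.1 h))
      rw [mem_centralizer_singleton_iff] at h7 h8
      rcases h5' u hu with h9 | ⟨i, hi, v', hv', -, rfl⟩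
      · have e1 : u * w * u⁻¹ = w' := (two _ (cj hw hu) (isConj_iff.2 ⟨u, rfl⟩)).resolve_left
          fun h => h7 (mul_inv_eq_iff_eq_mul.1 h)
        have e2 : v * u * v⁻¹ = w * u * w⁻¹ := (eq_or_eq_of_le_two hu (cj hu hw) (cj hu (hVP hv))
          (isConj_iff.2 ⟨w, rfl⟩) (isConj_iff.2 ⟨v, rfl⟩)
          (fun h => h7 (mul_inv_eq_iff_eq_mul.1 h.symm).symm) h9).resolve_left
          fun h => h8 (mul_inv_eq_iff_eq_mul.1 h).symm
        have e3 : w * w'⁻¹ = v * (u * v * u⁻¹)⁻¹ := by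
          calc w * w'⁻¹ = (w * u * w⁻¹) * u⁻¹ := by rw [← e1]; group
            _ = v * (u * v * u⁻¹)⁻¹ := by rw [← e2]; group
        rw [e3]
        exact mul_mem hv (inv_mem (clV v hv u (cj (hVP hv) hu)))
      · refine absurd ?_ h8
        have c1 : Commute v' v := h4.V_le_cent hv v' hv'
        exact (c1.mul_left (isolated_comm hi (hVP hv)).symm).eq
  refine (closure_le _).2 ?_
  rintro _ ⟨hg, x, hx, u, rfl⟩
  have e : ⁅x, u⁆ = x * (u * x * u⁻¹)⁻¹ := by rw [commutatorElement_def]; group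
  rw [e] at hg ⊢
  exact main x hx _ (inv_mem_iff.1 ((P : Subgroup G).mul_mem_cancel_left hx |>.1 hg))
    (isConj_iff.2 ⟨u, rfl⟩)

end CfsgLib.GW
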